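import Cfsg.Agent.H872.HT.Two
import Cfsg.Agent.S0886

/-!
# Extension of a 2-transitive permutation character (helper872, S4933)

`exists_ext`: `N` normal in `G` of 2-power index, all transitive actions of `N` of degree `m` are 2-transitive, `m` odd,
`m ^ 2 ∤ |N|`, and `K ≤ G` with `|N : N ∩ K| = m` and `|G : N K| ≤ 2`. Then `π - 1` extends to `G`, where `π` is
the permutation character of degree `m`.
-/

set_option autoImplicit false

open Cfsg Cfsg.Agent.Characters.Core MulAction Subgroup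

namespace Cfsg.Agent.H872.HT

universe u w

section Coset

variable {G : Type u} [Group G]

/-- the action of `N` on the cosets of `K` in `H = N K` -/
def CosN (N H K : Subgroup G) (_hN : N ≤ H) : Type u := H ⧸ K.subgroupOf H

/-- the coset -/
def CosN.mk (N H K : Subgroup G) (hN : N ≤ H) (h : H) : CosN N H K hN := (QuotientGroup.mk h : H ⧸ K.subgroupOf H)

instance (N H K : Subgroup G) (hN : N ≤ H) : MulAction N (CosN N H K hN) :=
  MulAction.compHom (H ⧸ K.subgroupOf H) (Subgroup.inclusion hN)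

instance [Finite G] (N H K : Subgroup G) (hN : N ≤ H) : Finite (CosN N H K hN) :=
  inferInstanceAs (Finite (H ⧸ K.subgroupOf H))

theorem CosN.smul_mk (N H K : Subgroup G) (hN : N ≤ H) (n : N) (h : H) :
    n • CosN.mk N H K hN h = CosN.mk N H K hN (Subgroup.inclusion hN n * h) := rfl

theorem CosN.mk_eq (N H K : Subgroup G) (hN : N ≤ H) (a b : H) :
    CosN.mk N H K hN a = CosN.mk N H K hN b ↔ (a : G)⁻¹ * b ∈ K := by
  have h : ((QuotientGroup.mk a : H ⧸ K.subgroupOf H) = QuotientGroup.mk b) ↔ (a : G)⁻¹ * b ∈ K := by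
    rw [QuotientGroup.eq, mem_subgroupOf]
    rfl
  exact h

theorem CosN.exists_mk (N H K : Subgroup G) (hN : N ≤ H) (x : CosN N H K hN) :
    ∃ h : H, x = CosN.mk N H K hN h := by
  obtain ⟨h, hh⟩ := QuotientGroup.mk_surjective (s := K.subgroupOf H) x
  exact ⟨h, hh.symm⟩

theorem CosN.pret (N H K : Subgroup G) (hN : N ≤ H) (hNn : N.Normal) (hH : H = N ⊔ K) :
    IsPretransitive N (CosN N H K hN) := by
  have key : ∀ h : H, ∃ n : N, n • CosN.mk N H K hN 1 = CosN.mk N H K hN h := by
    intro h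
    have h1 : (h : G) ∈ N ⊔ K := hH ▸ h.2
    obtain ⟨n, hn, k, hk, h2⟩ := Subgroup.mem_sup_of_normal_left.1 h1
    refine ⟨⟨n, hn⟩, ?_⟩
    rw [CosN.smul_mk, CosN.mk_eq]
    show (n * 1)⁻¹ * (h : G) ∈ K
    rw [← h2, mul_one, inv_mul_cancel_left]
    exact hk
  constructor
  intro x y
  obtain ⟨a, rfl⟩ := CosN.exists_mk N H K hN x
  obtain ⟨b, rfl⟩ := CosN.exists_mk N H K hN y
  obtain ⟨n, hn⟩ := key a
  obtain ⟨n', hn'⟩ := key b
  refine ⟨n' * n⁻¹, ?_⟩
  rw [mul_smul, ← hn, inv_smul_smul, hn']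

theorem CosN.card (N H K : Subgroup G) (hN : N ≤ H) (hNn : N.Normal) (hH : H = N ⊔ K) :
    Nat.card (CosN N H K hN) = K.relIndex N := by
  have := CosN.pret N H K hN hNn hH
  rw [← index_stabilizer_of_transitive N (CosN.mk N H K hN 1)]
  have h1 : stabilizer N (CosN.mk N H K hN 1) = K.subgroupOf N := by
    ext n
    rw [mem_stabilizer_iff, CosN.smul_mk, CosN.mk_eq, mem_subgroupOf]
    show ((n : G) * 1)⁻¹ * 1 ∈ K ↔ _
    rw [mul_one, mul_one, inv_mem_iff]
  rw [h1]
  rfl

end Coset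

variable {G : Type u} [Group G] [Finite G]

theorem exists_ext (N : Subgroup G) [hNn : N.Normal] {m : ℕ} (hm : 2 ≤ m)
    (hidx : ∃ j : ℕ, N.index = 2 ^ j) (hmodd : Odd m) (hdvd : ¬ m ^ 2 ∣ Nat.card N)
    (h2t : ∀ (X : Type u) [MulAction N X] [Finite X] [IsPretransitive N X], Nat.card X = m →
      IsMultiplyPretransitive N X 2)
    (K : Subgroup G) (hK : K.relIndex N = m) (h2 : (N ⊔ K).index ≤ 2)
    (Y : Type w) [MulAction N Y] [Finite Y] [IsPretransitive N Y] (hYm : Nat.card Y = m)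
    (hY2 : IsMultiplyPretransitive N Y 2) :
    ∃ χ : IrrCharacter G, ∀ n : N, (χ : G → ℂ) n = (Nat.card (fixedBy Y n) : ℂ) - 1 := by
  classical
  set H : Subgroup G := N ⊔ K with hH
  have hN : N ≤ H := le_sup_left
  have hKH : K ≤ H := le_sup_right
  have hH0 : H.index ≠ 0 := Subgroup.index_ne_zero_of_finite
  have hHn : H.Normal := by
    rcases Nat.lt_or_ge H.index 2 with h | h
    · have h3 : H = ⊤ := Subgroup.index_eq_one.1 (by omega)
      rw [h3]; infer_instance
    · exact Subgroup.normal_of_index_eq_two (by omega)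
  have hcyc : IsCyclic (G ⧸ H) := by
    have h3 : Nat.card (G ⧸ H) = H.index := rfl
    rcases Nat.lt_or_ge H.index 2 with h | h
    · have h4 : Nat.card (G ⧸ H) = 1 := by omega
      have := (Nat.card_eq_one_iff_unique.1 h4).1
      infer_instance
    · have : Fact (Nat.Prime 2) := ⟨Nat.prime_two⟩
      exact isCyclic_of_prime_card (p := 2) (by omega)
  -- the order of H
  have hHcard : ¬ m ^ 2 ∣ Nat.card H := by
    intro h
    apply hdvd
    obtain ⟨j, hj⟩ := hidx
    have h3 : Nat.card N * N.relIndex H = Nat.card H := by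
      rw [← Subgroup.relIndex_bot_left N, ← Subgroup.relIndex_bot_left H]
      exact Subgroup.relIndex_mul_relIndex _ _ _ bot_le hN
    have h4 : N.relIndex H ∣ 2 ^ j := by
      rw [← hj]
      exact Subgroup.relIndex_dvd_index_of_normal N H
    have h5 : (m ^ 2).Coprime (N.relIndex H) := by
      apply Nat.Coprime.coprime_dvd_right h4
      apply Nat.Coprime.pow
      exact Nat.coprime_two_right.2 hmodd
    rw [← h3] at h
    exact h5.dvd_of_dvd_mul_right h
  -- the action of H on the cosets of K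
  have hpN := CosN.pret N H K hN hNn hH
  have hcN : Nat.card (CosN N H K hN) = m := (CosN.card N H K hN hNn hH).trans hK
  have h2N : IsMultiplyPretransitive N (CosN N H K hN) 2 := h2t _ hcN
  have hcH : Nat.card (H ⧸ K.subgroupOf H) = m := hcN
  have h2H : IsMultiplyPretransitive H (H ⧸ K.subgroupOf H) 2 := by
    rw [is_two_pretransitive_iff] at h2N ⊢
    intro a b c d hab hcd
    obtain ⟨n, hn1, hn2⟩ := @h2N a b c d hab hcd
    exact ⟨Subgroup.inclusion hN n, hn1, hn2⟩
  have hirr : IsIrrCharacter H (fun h : H => (Nat.card (fixedBy (H ⧸ K.subgroupOf H) h) : ℂ) - 1) :=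
    (S0157.result (H ⧸ K.subgroupOf H) (by omega)).2 h2H
  obtain ⟨χ, hχ, hχv⟩ := S0886.result H hcyc _ hirr (fun g t => by
    have h3 := perm_inv hm hcH h2H hHcard (MulAut.conjNormal g) t
    have h4 : (⟨g * t * g⁻¹, hHn.conj_mem (t : G) t.2 g⟩ : H) = MulAut.conjNormal g t := by
      apply Subtype.ext
      rw [MulAut.conjNormal_apply]
    rw [h4, h3])
  refine ⟨⟨χ, hχ⟩, fun n => ?_⟩
  have h3 := hχv (Subgroup.inclusion hN n)
  show χ (n : G) = _
  rw [show (n : G) = ((Subgroup.inclusion hN n : H) : G) from rfl, h3]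
  have h5 := perm_eq' (X := CosN N H K hN) (Y := Y) hm hcN hYm h2N hY2 hdvd n
  rw [← h5]
  rfl

end Cfsg.Agent.H872.HT
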