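import Cfsg.Agent.H937.SL3Aut
import Cfsg.Agent.H872.HT.Ext

/-!
# Subgroups of `PSL_3(q)` of index `q^2 + q + 1` (helper872, S4933)

* `cls` : such a subgroup of `SL_3(q)` is the stabiliser of a point or of a line;
* `three` : among three such subgroups of a quotient of `SL_3(q)` two are conjugate;
* `index_le_two` : `|G : N N_G(P)| ≤ 2` for `P ≤ N` of index `q^2 + q + 1`;
* `not_sq_dvd` : `(q^2 + q + 1)^2` does not divide the order.
-/

set_option autoImplicit false

namespace Cfsg.Agent.H872.HT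

open Matrix MulAction Cfsg.Agent.H937.SL3
open Cfsg.Agent.ClassicalGeometry.AutPSL.Auto

section SL

variable {F : Type*} [Field F] [Finite F]

local notation "SL3" => Matrix.SpecialLinearGroup (Fin 3) F

theorem cls {K : Subgroup SL3} (hK : K.index = Nat.card F ^ 2 + Nat.card F + 1) :
    (∃ x : Projectivization F (Fin 3 → F), K = stabilizer SL3 x) ∨
      (∃ x : Projectivization F (Fin 3 → F), K.map (itr : MulAut SL3).toMonoidHom = stabilizer SL3 x) := by
  have := Fintype.ofFinite F
  obtain ⟨p, hchar⟩ := CharP.exists F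
  obtain ⟨a, hp, ha⟩ := FiniteField.card F p
  have hfp : Fact p.Prime := ⟨hp⟩
  have hpq : p ∣ Nat.card F := by
    rw [Nat.card_eq_fintype_card, ha]
    exact dvd_pow_self p a.pos.ne'
  have h1 : ¬ p ∣ K.index := by
    intro h
    rw [hK] at h
    have h2 : p ∣ Nat.card F ^ 2 + Nat.card F := by
      rw [sq]; exact Dvd.dvd.add (hpq.mul_right _) hpq
    exact hp.one_lt.ne' (Nat.dvd_one.1 ((Nat.dvd_add_right h2).1 h))
  have h2 : K ≠ ⊤ := by
    rintro rfl
    rw [Subgroup.index_top] at hK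
    have : 0 < Nat.card F := Nat.card_pos
    have : 0 < Nat.card F ^ 2 := by positivity
    omega
  obtain ⟨W, hW0, hW1, hW⟩ := exists_invariant (p := p) h1 h2
  rcases point_or_line hW0 hW1 hW with ⟨x, hx⟩ | ⟨x, hx⟩
  · left
    refine ⟨x, stab_eq_of_le hx ?_⟩
    rw [sum_three, hK]
  · right
    refine ⟨x, stab_eq_of_le hx ?_⟩
    rw [sum_three, ← hK]
    exact (Subgroup.index_map_equiv K (itr : SL3 ≃* SL3)).le

omit [Finite F] in
theorem conj_stab (x y : Projectivization F (Fin 3 → F)) :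
    ∃ g : SL3, stabilizer SL3 y = (stabilizer SL3 x).map (MulAut.conj g).toMonoidHom := by
  obtain ⟨g, hg⟩ := (pretrans (ι := Fin 3) (F := F)).exists_smul_eq x y
  exact ⟨g, by rw [← hg, stabilizer_smul_eq_stabilizer_map_conj]⟩

omit [Finite F] in
theorem conj_itr {K L : Subgroup SL3} {g : SL3}
    (h : L.map (itr : MulAut SL3).toMonoidHom =
      (K.map (itr : MulAut SL3).toMonoidHom).map (MulAut.conj g).toMonoidHom) :
    ∃ k : SL3, L = K.map (MulAut.conj k).toMonoidHom := by
  obtain ⟨k, rfl⟩ := (itr : MulAut SL3).surjective g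
  refine ⟨k, ?_⟩
  apply Subgroup.map_injective (itr : MulAut SL3).injective (f := (itr : MulAut SL3).toMonoidHom)
  rw [h, Subgroup.map_map, Subgroup.map_map]
  congr 1
  ext1 x
  show (itr : MulAut SL3) k * (itr : MulAut SL3) x * ((itr : MulAut SL3) k)⁻¹ = (itr : MulAut SL3) (k * x * k⁻¹)
  rw [map_mul, map_mul, map_inv]

/-- among three subgroups of index `q^2 + q + 1` two are conjugate -/
theorem three_SL (K1 K2 K3 : Subgroup SL3) (h1 : K1.index = Nat.card F ^ 2 + Nat.card F + 1)
    (h2 : K2.index = Nat.card F ^ 2 + Nat.card F + 1) (h3 : K3.index = Nat.card F ^ 2 + Nat.card F + 1) :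
    ∃ g : SL3, K2 = K1.map (MulAut.conj g).toMonoidHom ∨ K3 = K1.map (MulAut.conj g).toMonoidHom ∨
      K3 = K2.map (MulAut.conj g).toMonoidHom := by
  have A : ∀ K L : Subgroup SL3, (∃ x : Projectivization F (Fin 3 → F), K = stabilizer SL3 x) →
      (∃ x : Projectivization F (Fin 3 → F), L = stabilizer SL3 x) →
      ∃ g : SL3, L = K.map (MulAut.conj g).toMonoidHom := by
    rintro _ _ ⟨x, rfl⟩ ⟨y, rfl⟩
    exact conj_stab x y
  have B : ∀ K L : Subgroup SL3,
      (∃ x : Projectivization F (Fin 3 → F), K.map (itr : MulAut SL3).toMonoidHom = stabilizer SL3 x) →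
      (∃ x : Projectivization F (Fin 3 → F), L.map (itr : MulAut SL3).toMonoidHom = stabilizer SL3 x) →
      ∃ g : SL3, L = K.map (MulAut.conj g).toMonoidHom := by
    rintro K L ⟨x, hx⟩ ⟨y, hy⟩
    obtain ⟨g, hg⟩ := conj_stab x y
    exact conj_itr (g := g) (by rw [hx, hy, hg])
  rcases cls h1 with a1 | a1 <;> rcases cls h2 with a2 | a2 <;> rcases cls h3 with a3 | a3
  · obtain ⟨g, hg⟩ := A _ _ a1 a2; exact ⟨g, Or.inl hg⟩
  · obtain ⟨g, hg⟩ := A _ _ a1 a2; exact ⟨g, Or.inl hg⟩
  · obtain ⟨g, hg⟩ := A _ _ a1 a3; exact ⟨g, Or.inr (Or.inl hg)⟩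
  · obtain ⟨g, hg⟩ := B _ _ a2 a3; exact ⟨g, Or.inr (Or.inr hg)⟩
  · obtain ⟨g, hg⟩ := A _ _ a2 a3; exact ⟨g, Or.inr (Or.inr hg)⟩
  · obtain ⟨g, hg⟩ := B _ _ a1 a3; exact ⟨g, Or.inr (Or.inl hg)⟩
  · obtain ⟨g, hg⟩ := B _ _ a1 a2; exact ⟨g, Or.inl hg⟩
  · obtain ⟨g, hg⟩ := B _ _ a1 a2; exact ⟨g, Or.inl hg⟩

/-- the same for a quotient of `SL_3(q)` -/
theorem three {N : Type*} [Group N] (f : SL3 →* N) (hf : Function.Surjective f) (K1 K2 K3 : Subgroup N)
    (h1 : K1.index = Nat.card F ^ 2 + Nat.card F + 1)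
    (h2 : K2.index = Nat.card F ^ 2 + Nat.card F + 1) (h3 : K3.index = Nat.card F ^ 2 + Nat.card F + 1) :
    ∃ g : N, K2 = K1.map (MulAut.conj g).toMonoidHom ∨ K3 = K1.map (MulAut.conj g).toMonoidHom ∨
      K3 = K2.map (MulAut.conj g).toMonoidHom := by
  have key : ∀ (K L : Subgroup N) (g : SL3), L.comap f = (K.comap f).map (MulAut.conj g).toMonoidHom →
      L = K.map (MulAut.conj (f g)).toMonoidHom := by
    intro K L g h
    have e : ((K.comap f).map (MulAut.conj g).toMonoidHom).map f =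
        ((K.comap f).map f).map (MulAut.conj (f g)).toMonoidHom := by
      rw [Subgroup.map_map, Subgroup.map_map]
      congr 1
      ext1 x
      show f (g * x * g⁻¹) = f g * f x * (f g)⁻¹
      rw [map_mul, map_mul, map_inv]
    rw [← h, Subgroup.map_comap_eq_self_of_surjective hf, Subgroup.map_comap_eq_self_of_surjective hf] at e
    exact e
  obtain ⟨g, hg⟩ := three_SL (K1.comap f) (K2.comap f) (K3.comap f)
    (by rw [Subgroup.index_comap_of_surjective _ hf, h1]) (by rw [Subgroup.index_comap_of_surjective _ hf, h2])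
    (by rw [Subgroup.index_comap_of_surjective _ hf, h3])
  refine ⟨f g, ?_⟩
  rcases hg with h | h | h
  · exact Or.inl (key _ _ g h)
  · exact Or.inr (Or.inl (key _ _ g h))
  · exact Or.inr (Or.inr (key _ _ g h))

theorem not_dvd_index : ¬ Nat.card F ^ 2 + Nat.card F + 1 ∣ Nat.card F ^ 3 * (Nat.card F ^ 2 - 1) * (Nat.card F - 1) := by
  intro h
  have hq : 1 < Nat.card F := Finite.one_lt_card
  obtain ⟨r, hr, h3, hd⟩ := exists_prime hq
  exact prime_facts hr h3 (by omega) hd (hd.trans h)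

theorem not_sq_dvd {N : Type*} [Group N] (f : SL3 →* N) (hf : Function.Surjective f) :
    ¬ (Nat.card F ^ 2 + Nat.card F + 1) ^ 2 ∣ Nat.card N := by
  intro h
  have h1 : Nat.card N ∣ Nat.card SL3 := Subgroup.card_dvd_of_surjective f hf
  rw [card_SL3] at h1
  have h2 := h.trans h1
  rw [sq] at h2
  exact not_dvd_index (F := F) (Nat.dvd_of_mul_dvd_mul_right (by positivity) h2)

end SL

section Ind

variable {G : Type*} [Group G]

theorem index_le_two_of (H : Subgroup G) [Finite G] (h : ∀ a b : G, a ∈ H ∨ b ∈ H ∨ a⁻¹ * b ∈ H) : H.index ≤ 2 := by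
  classical
  have := Fintype.ofFinite (G ⧸ H)
  by_contra hcon
  have h1 : 2 < Fintype.card (G ⧸ H) := by
    rw [← Nat.card_eq_fintype_card]
    have : Nat.card (G ⧸ H) = H.index := rfl
    omega
  obtain ⟨x, y, z, hxy, hxz, hyz⟩ := Fintype.two_lt_card_iff.1 h1
  induction x using QuotientGroup.induction_on with | H x =>
  induction y using QuotientGroup.induction_on with | H y =>
  induction z using QuotientGroup.induction_on with | H z =>
  rw [ne_eq, QuotientGroup.eq] at hxy hxz hyz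
  rcases h (x⁻¹ * y) (x⁻¹ * z) with h2 | h2 | h2
  · exact hxy h2
  · exact hxz h2
  · apply hyz
    rw [_root_.mul_inv_rev, inv_inv, mul_assoc, mul_inv_cancel_left] at h2
    exact h2

/-- `|G : N N_G(P)| ≤ 2` if among three subgroups of `N` of the index of `P` two are `N`-conjugate -/
theorem index_le_two [Finite G] (N : Subgroup G) [hN : N.Normal] (P : Subgroup N) {m : ℕ} (hm : P.index = m)
    (h3 : ∀ K1 K2 K3 : Subgroup N, K1.index = m → K2.index = m → K3.index = m →
      ∃ g : N, K2 = K1.map (MulAut.conj g).toMonoidHom ∨ K3 = K1.map (MulAut.conj g).toMonoidHom ∨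
        K3 = K2.map (MulAut.conj g).toMonoidHom)
    (K : Subgroup G) (hK : ∀ g : G, P.map (MulAut.conjNormal g : MulAut N).toMonoidHom = P → g ∈ K) :
    (N ⊔ K).index ≤ 2 := by
  have hc : ∀ n : N, (MulAut.conj n : MulAut N) = MulAut.conjNormal (n : G) := by
    intro n
    ext x
    rw [MulAut.conjNormal_apply]
    rfl
  have hmm : ∀ (Q : Subgroup N) (a b : G), (Q.map (MulAut.conjNormal a : MulAut N).toMonoidHom).map
      (MulAut.conjNormal b : MulAut N).toMonoidHom = Q.map (MulAut.conjNormal (b * a) : MulAut N).toMonoidHom := by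
    intro Q a b
    rw [Subgroup.map_map]
    congr 1
    ext1 x
    show (MulAut.conjNormal b : MulAut N) ((MulAut.conjNormal a : MulAut N) x) = (MulAut.conjNormal (b * a) : MulAut N) x
    rw [map_mul]
    rfl
  have h1m : ∀ (Q : Subgroup N), Q.map (MulAut.conjNormal (1 : G) : MulAut N).toMonoidHom = Q := by
    intro Q
    rw [map_one]
    exact Subgroup.map_id Q
  have hidx : ∀ a : G, (P.map (MulAut.conjNormal a : MulAut N).toMonoidHom).index = m := by
    intro a
    rw [← hm]
    exact Subgroup.index_map_equiv P (MulAut.conjNormal a : N ≃* N)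
  have key : ∀ (a b : G) (n : N), P.map (MulAut.conjNormal b : MulAut N).toMonoidHom =
      (P.map (MulAut.conjNormal a : MulAut N).toMonoidHom).map (MulAut.conj n : MulAut N).toMonoidHom →
      a⁻¹ * b ∈ N ⊔ K := by
    intro a b n h
    rw [hc, hmm] at h
    have h2 := congrArg (fun Q : Subgroup N => Q.map (MulAut.conjNormal (n * a)⁻¹ : MulAut N).toMonoidHom) h
    rw [hmm, hmm, inv_mul_cancel, h1m] at h2
    have h4 : a⁻¹ * b = (a⁻¹ * n * a) * (((n : G) * a)⁻¹ * b) := by group
    rw [h4]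
    have h5 : a⁻¹ * n * a ∈ N := by
      have := hN.conj_mem (n : G) n.2 a⁻¹
      rwa [inv_inv] at this
    exact mul_mem (Subgroup.mem_sup_left h5) (Subgroup.mem_sup_right (hK _ h2))
  apply index_le_two_of
  intro a b
  obtain ⟨n, h | h | h⟩ := h3 (P.map (MulAut.conjNormal (1 : G) : MulAut N).toMonoidHom)
    (P.map (MulAut.conjNormal a : MulAut N).toMonoidHom) (P.map (MulAut.conjNormal b : MulAut N).toMonoidHom)
    (hidx 1) (hidx a) (hidx b)
  · left
    have := key 1 a n h
    rwa [inv_one, one_mul] at this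
  · right; left
    have := key 1 b n h
    rwa [inv_one, one_mul] at this
  · right; right
    exact key a b n h

end Ind

end Cfsg.Agent.H872.HT
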