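import Cfsg.Agent.H872.HT.L3Geo
import Cfsg.Agent.H386.PslPts
import Mathlib.NumberTheory.LegendreSymbol.QuadraticChar.Basic

/-!
# The character of degree `q (q + 1)` of `PSL_3(q)`, `q` odd, is in the principal 2-block (helper872, S4933)
-/

set_option autoImplicit false

namespace Cfsg.Agent.H872.HT

open Matrix MulAction Cfsg Cfsg.Agent.H937.SL3

section Lin

variable {F : Type*} [Field F] [Fintype F]

local notation "SL3" => Matrix.SpecialLinearGroup (Fin 3) F

/-- the quadratic character with complex values -/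
noncomputable def chi2 (F : Type*) [Field F] [Fintype F] [DecidableEq F] : Fˣ →* ℂˣ :=
  (Units.map (Int.castRingHom ℂ : ℤ →* ℂ)).comp (quadraticChar F).toUnitHom

theorem chi2_apply [DecidableEq F] (c : Fˣ) : ((chi2 F c : ℂˣ) : ℂ) = (quadraticChar F (c : F) : ℤ) := rfl

theorem chi2_sq [DecidableEq F] (c : Fˣ) : chi2 F c ^ 2 = 1 := by
  apply Units.ext
  rw [Units.val_pow_eq_pow_val, chi2_apply, Units.val_one]
  have h := quadraticChar_sq_one (F := F) (a := (c : F)) c.ne_zero
  exact_mod_cast h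

theorem chi2_of_cube [DecidableEq F] {c : Fˣ} (h : c ^ 3 = 1) : chi2 F c = 1 := by
  have h1 : chi2 F c ^ 3 = 1 := by rw [← map_pow, h, map_one]
  have h2 := chi2_sq c
  rw [pow_succ, h2, one_mul] at h1
  exact h1

theorem exists_chi2 [DecidableEq F] (hodd : Odd (Fintype.card F)) : ∃ c : Fˣ, chi2 F c ≠ 1 := by
  have h2 : ringChar F ≠ 2 := by
    intro h
    have := FiniteField.even_card_iff_char_two.1 h
    rw [Nat.odd_iff] at hodd
    omega
  obtain ⟨a, ha⟩ := quadraticChar_exists_neg_one h2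
  have ha0 : a ≠ 0 := by
    rintro rfl
    rw [quadraticChar_zero] at ha
    norm_num at ha
  refine ⟨Units.mk0 a ha0, fun h => ?_⟩
  have h1 := congrArg (fun u : ℂˣ => (u : ℂ)) h
  rw [chi2_apply, Units.val_mk0, ha, Units.val_one] at h1
  norm_num at h1

/-- the first basis vector -/
def e0 : Fin 3 → F := Pi.single 0 1

omit [Fintype F] in
theorem e0_ne : (e0 : Fin 3 → F) ≠ 0 := by
  intro h
  have := congrFun h 0
  rw [e0, Pi.single_eq_same] at this
  exact one_ne_zero this

/-- the first point -/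
def x0 : Projectivization F (Fin 3 → F) := Projectivization.mk F e0 e0_ne

omit [Fintype F] in
theorem mem_st {g : SL3} : g ∈ stabilizer SL3 (x0 : Projectivization F (Fin 3 → F)) ↔
    (g : Matrix (Fin 3) (Fin 3) F) 1 0 = 0 ∧ (g : Matrix (Fin 3) (Fin 3) F) 2 0 = 0 := by
  rw [x0, mem_stab_mk]
  have h1 : (g : Matrix (Fin 3) (Fin 3) F) *ᵥ e0 = fun i => (g : Matrix (Fin 3) (Fin 3) F) i 0 := by
    funext i
    rw [e0, mulVec_single_one]
    rfl
  rw [h1]
  constructor
  · rintro ⟨c, hc⟩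
    have e1 := congrFun hc 1
    have e2 := congrFun hc 2
    simp [e0] at e1 e2
    exact ⟨e1, e2⟩
  · rintro ⟨e1, e2⟩
    refine ⟨(g : Matrix (Fin 3) (Fin 3) F) 0 0, ?_⟩
    funext i
    fin_cases i <;> simp [e0, e1, e2]

/-- the eigenvalue on the first point -/
def eig : stabilizer SL3 (x0 : Projectivization F (Fin 3 → F)) →* F where
  toFun g := ((g : SL3) : Matrix (Fin 3) (Fin 3) F) 0 0
  map_one' := by
    show ((1 : SL3) : Matrix (Fin 3) (Fin 3) F) 0 0 = 1
    rw [Matrix.SpecialLinearGroup.coe_one, one_apply_eq]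
  map_mul' a b := by
    have hb := mem_st.1 b.2
    show ((((a : SL3) * (b : SL3) : SL3)) : Matrix (Fin 3) (Fin 3) F) 0 0 = _
    rw [Matrix.SpecialLinearGroup.coe_mul, mul_apply, Fin.sum_univ_three, hb.1, hb.2, mul_zero, mul_zero, add_zero,
      add_zero]

/-- the linear character of order two of the stabiliser -/
noncomputable def lamS [DecidableEq F] : stabilizer SL3 (x0 : Projectivization F (Fin 3 → F)) →* ℂˣ :=
  (chi2 F).comp (eig (F := F)).toHomUnits

variable {N : Type*} [Group N]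

/-- the action of `N` on the points, through an isomorphism with `PSL_3` -/
def Pts (_e : N ≃* Matrix.ProjectiveSpecialLinearGroup (Fin 3) F) : Type _ := Projectivization F (Fin 3 → F)

/-- a point -/
def Pts.mk (e : N ≃* Matrix.ProjectiveSpecialLinearGroup (Fin 3) F) (x : Projectivization F (Fin 3 → F)) :
    Pts e := x

/-- the projection -/
def prj (e : N ≃* Matrix.ProjectiveSpecialLinearGroup (Fin 3) F) : SL3 →* N :=
  (e.symm : Matrix.ProjectiveSpecialLinearGroup (Fin 3) F ≃* N).toMonoidHom.comp (QuotientGroup.mk' _)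

omit [Fintype F] in
theorem prj_surj (e : N ≃* Matrix.ProjectiveSpecialLinearGroup (Fin 3) F) : Function.Surjective (prj e) :=
  e.symm.surjective.comp (QuotientGroup.mk'_surjective _)

omit [Fintype F] in
theorem prj_ker (e : N ≃* Matrix.ProjectiveSpecialLinearGroup (Fin 3) F) {g : SL3} (h : prj e g = 1) :
    g ∈ Subgroup.center SL3 := by
  have h1 : e.symm (QuotientGroup.mk g : Matrix.ProjectiveSpecialLinearGroup (Fin 3) F) = 1 := h
  rw [EmbeddingLike.map_eq_one_iff] at h1
  exact (QuotientGroup.eq_one_iff g).1 h1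

noncomputable instance (e : N ≃* Matrix.ProjectiveSpecialLinearGroup (Fin 3) F) : MulAction N (Pts e) :=
  MulAction.compHom (Projectivization F (Fin 3 → F)) e.toMonoidHom

instance (e : N ≃* Matrix.ProjectiveSpecialLinearGroup (Fin 3) F) : Finite (Pts e) := by
  have : Finite (Projectivization F (Fin 3 → F)) := by
    unfold Projectivization
    infer_instance
  exact inferInstanceAs (Finite (Projectivization F (Fin 3 → F)))

omit [Fintype F] in
theorem smul_mk (e : N ≃* Matrix.ProjectiveSpecialLinearGroup (Fin 3) F) (g : SL3)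
    (x : Projectivization F (Fin 3 → F)) : prj e g • Pts.mk e x = Pts.mk e (g • x) := by
  have h : e (prj e g) = (QuotientGroup.mk g : Matrix.ProjectiveSpecialLinearGroup (Fin 3) F) := by
    show e (e.symm _) = _
    rw [MulEquiv.apply_symm_apply]
    rfl
  have h2 : prj e g • Pts.mk e x = (e (prj e g) • x : Projectivization F (Fin 3 → F)) := rfl
  rw [h2, h]
  rfl

instance (e : N ≃* Matrix.ProjectiveSpecialLinearGroup (Fin 3) F) : IsPretransitive N (Pts e) := by
  have h := pretrans (ι := Fin 3) (F := F)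
  refine ⟨fun (x y : Projectivization F (Fin 3 → F)) => ?_⟩
  obtain ⟨g, hg⟩ := exists_smul_eq SL3 x y
  refine ⟨prj e g, ?_⟩
  show prj e g • Pts.mk e x = Pts.mk e y
  rw [smul_mk, hg]

omit [Fintype F] in
theorem pts_two (e : N ≃* Matrix.ProjectiveSpecialLinearGroup (Fin 3) F) :
    IsMultiplyPretransitive N (Pts e) 2 := by
  have h : IsMultiplyPretransitive SL3 (Projectivization F (Fin 3 → F)) 2 := inferInstance
  rw [is_two_pretransitive_iff] at h ⊢
  have key : ∀ a b c d : Projectivization F (Fin 3 → F), a ≠ b → c ≠ d →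
      ∃ n : N, n • Pts.mk e a = Pts.mk e c ∧ n • Pts.mk e b = Pts.mk e d := by
    intro a b c d h1 h2
    obtain ⟨g, hg1, hg2⟩ := h h1 h2
    exact ⟨prj e g, by rw [smul_mk, hg1], by rw [smul_mk, hg2]⟩
  intro a b c d h1 h2
  exact key a b c d h1 h2

theorem card_pts (e : N ≃* Matrix.ProjectiveSpecialLinearGroup (Fin 3) F) :
    Nat.card (Pts e) = Nat.card F ^ 2 + Nat.card F + 1 := by
  have h := Projectivization.card_of_finrank F (Fin 3 → F) (Module.finrank_fin_fun F (n := 3))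
  rw [sum_three] at h
  exact h

/-- the projection of the stabiliser -/
def prjS (e : N ≃* Matrix.ProjectiveSpecialLinearGroup (Fin 3) F) :
    stabilizer SL3 (x0 : Projectivization F (Fin 3 → F)) →* stabilizer N (Pts.mk e x0) where
  toFun g := ⟨prj e (g : SL3), by
    rw [mem_stabilizer_iff, smul_mk, mem_stabilizer_iff.1 g.2]⟩
  map_one' := Subtype.ext (map_one (prj e))
  map_mul' a b := Subtype.ext (map_mul (prj e) (a : SL3) (b : SL3))

omit [Fintype F] in
theorem mem_st_iff (e : N ≃* Matrix.ProjectiveSpecialLinearGroup (Fin 3) F) (g : SL3) :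
    prj e g ∈ stabilizer N (Pts.mk e x0) ↔ g ∈ stabilizer SL3 (x0 : Projectivization F (Fin 3 → F)) := by
  rw [mem_stabilizer_iff, smul_mk, mem_stabilizer_iff]
  rfl

omit [Fintype F] in
theorem prjS_surj (e : N ≃* Matrix.ProjectiveSpecialLinearGroup (Fin 3) F) : Function.Surjective (prjS e) := by
  rintro ⟨n, hn⟩
  obtain ⟨g, rfl⟩ := prj_surj e n
  exact ⟨⟨g, (mem_st_iff e g).1 hn⟩, rfl⟩

theorem ker_le [DecidableEq F] (e : N ≃* Matrix.ProjectiveSpecialLinearGroup (Fin 3) F) :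
    (prjS e).ker ≤ (lamS (F := F)).ker := by
  intro g hg
  rw [MonoidHom.mem_ker] at hg ⊢
  have h1 : prj e (g : SL3) = 1 := congrArg Subtype.val hg
  have h2 := prj_ker e h1
  rw [Matrix.SpecialLinearGroup.mem_center_iff] at h2
  obtain ⟨r, hr, hr2⟩ := h2
  have h3 : eig g = r := by
    show ((g : SL3) : Matrix (Fin 3) (Fin 3) F) 0 0 = r
    rw [← hr2, scalar_apply, diagonal_apply_eq]
  have h4 : (eig (F := F)).toHomUnits g ^ 3 = 1 := by
    apply Units.ext
    rw [Units.val_pow_eq_pow_val, MonoidHom.coe_toHomUnits, h3, Units.val_one]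
    simpa using hr
  exact chi2_of_cube h4

/-- the linear character of order two of the stabiliser in `N` -/
noncomputable def lam [DecidableEq F] (e : N ≃* Matrix.ProjectiveSpecialLinearGroup (Fin 3) F) :
    stabilizer N (Pts.mk e x0) →* ℂˣ :=
  (prjS e).liftOfRightInverse (Function.surjInv (prjS_surj e)) (Function.rightInverse_surjInv _)
    ⟨lamS (F := F), ker_le e⟩

theorem lam_apply [DecidableEq F] (e : N ≃* Matrix.ProjectiveSpecialLinearGroup (Fin 3) F)
    (g : stabilizer SL3 (x0 : Projectivization F (Fin 3 → F))) : lam e (prjS e g) = lamS g :=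
  (prjS e).liftOfRightInverse_comp_apply _ _ _ g

theorem lam_sq [DecidableEq F] (e : N ≃* Matrix.ProjectiveSpecialLinearGroup (Fin 3) F) :
    (lam e) ^ 2 ^ 1 = 1 := by
  ext1 n
  obtain ⟨g, rfl⟩ := prjS_surj e n
  rw [pow_one, MonoidHom.pow_apply, lam_apply, MonoidHom.one_apply]
  exact chi2_sq _

/-- the cyclic permutation -/
def cyM : SL3 := ⟨!![0, 0, 1; 1, 0, 0; 0, 1, 0], by rw [det_fin_three]; simp⟩

/-- a diagonal matrix -/
def dgM (c : Fˣ) : SL3 := ⟨!![(c : F), 0, 0; 0, 1, 0; 0, 0, ((c⁻¹ : Fˣ) : F)], by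
  rw [det_fin_three]; simp⟩

/-- the conjugate diagonal matrix -/
def dgM' (c : Fˣ) : SL3 := ⟨!![1, 0, 0; 0, ((c⁻¹ : Fˣ) : F), 0; 0, 0, (c : F)], by
  rw [det_fin_three]; simp⟩

omit [Fintype F] in
theorem cyM_mul (c : Fˣ) : (cyM : SL3)⁻¹ * dgM c * cyM = dgM' c := by
  rw [mul_assoc, inv_mul_eq_iff_eq_mul]
  apply Subtype.ext
  rw [Matrix.SpecialLinearGroup.coe_mul, Matrix.SpecialLinearGroup.coe_mul]
  show !![(c : F), 0, 0; 0, 1, 0; 0, 0, ((c⁻¹ : Fˣ) : F)] * !![(0 : F), 0, 1; 1, 0, 0; 0, 1, 0] =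
    !![(0 : F), 0, 1; 1, 0, 0; 0, 1, 0] * !![(1 : F), 0, 0; 0, ((c⁻¹ : Fˣ) : F), 0; 0, 0, (c : F)]
  ext i j
  fin_cases i <;> fin_cases j <;> simp [mul_apply, Fin.sum_univ_three]

theorem mackey_lam [DecidableEq F] (hodd : Odd (Fintype.card F))
    (e : N ≃* Matrix.ProjectiveSpecialLinearGroup (Fin 3) F) (g : N)
    (h : ∀ a b : stabilizer N (Pts.mk e x0), (b : N) = g * a * g⁻¹ → lam e a = lam e b) :
    g ∈ stabilizer N (Pts.mk e x0) := by
  obtain ⟨c, hc⟩ := exists_chi2 hodd
  have hd : dgM c ∈ stabilizer SL3 (x0 : Projectivization F (Fin 3 → F)) := mem_st.2 ⟨rfl, rfl⟩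
  have hd' : dgM' c ∈ stabilizer SL3 (x0 : Projectivization F (Fin 3 → F)) := mem_st.2 ⟨rfl, rfl⟩
  have hcy : cyM ∉ stabilizer SL3 (x0 : Projectivization F (Fin 3 → F)) := by
    intro h1
    have h2 := (mem_st.1 h1).1
    exact one_ne_zero (α := F) h2
  have hconj : (prj e cyM)⁻¹ * prj e (dgM c) * prj e cyM = prj e (dgM' c) := by
    rw [← map_inv, ← map_mul, ← map_mul, cyM_mul]
  have h1 : prj e (dgM c) ∈ stabilizer N (Pts.mk e x0) := (mem_st_iff e _).2 hd
  have h2 : (prj e cyM)⁻¹ * prj e (dgM c) * prj e cyM ∈ stabilizer N (Pts.mk e x0) := by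
    rw [hconj]; exact (mem_st_iff e _).2 hd'
  refine mackey_of_two (pts_two e) (Pts.mk e x0) (lam e) (prj e cyM) (prj e (dgM c)) ?_ h1 h2 ?_ g h
  · intro h3
    exact hcy ((mem_st_iff e _).1 (mem_stabilizer_iff.2 h3))
  · have e1 : (⟨_, h1⟩ : stabilizer N (Pts.mk e x0)) = prjS e ⟨dgM c, hd⟩ := rfl
    have e2 : (⟨_, h2⟩ : stabilizer N (Pts.mk e x0)) = prjS e ⟨dgM' c, hd'⟩ := Subtype.ext hconj
    rw [e1, e2, lam_apply, lam_apply]
    have e3 : (eig (F := F)).toHomUnits ⟨dgM c, hd⟩ = c := Units.ext rfl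
    have e4 : (eig (F := F)).toHomUnits ⟨dgM' c, hd'⟩ = 1 := Units.ext rfl
    show chi2 F ((eig (F := F)).toHomUnits ⟨dgM c, hd⟩) ≠ chi2 F ((eig (F := F)).toHomUnits ⟨dgM' c, hd'⟩)
    rw [e3, e4, map_one]
    exact hc

end Lin

section Mem

variable {F : Type*} [Field F] [Fintype F] {N : Type*} [Group N] [Finite N] {M : Ideal AlgInt}

/-- the character `π - 1` of degree `q (q + 1)` -/
theorem irr_pts (e : N ≃* Matrix.ProjectiveSpecialLinearGroup (Fin 3) F) :
    IsIrrCharacter N (fun n => (Nat.card (fixedBy (Pts e) n) : ℂ) - 1) := by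
  have h := card_pts e
  have hq : 1 < Nat.card F := Finite.one_lt_card
  exact (S0157.result (Pts e) (by omega)).2 (pts_two e)

theorem pts_mem (hM : IsPModular 2 M) (hodd : Odd (Fintype.card F))
    (e : N ≃* Matrix.ProjectiveSpecialLinearGroup (Fin 3) F) :
    (⟨_, irr_pts e⟩ : IrrCharacter N) ∈ principalBlock M N := by
  classical
  have : Fact (Nat.Prime 2) := ⟨Nat.prime_two⟩
  exact perm_mem hM (Pts.mk e x0) (lam e) ⟨1, lam_sq e⟩ (mackey_lam hodd e) _ fun _ => rfl

end Mem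

end Cfsg.Agent.H872.HT
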