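import Cfsg.Agent.H872.HT.L3Lin
import Cfsg.Agent.H624.HT.RowOf

/-!
# S4933, box 2.L3.wr: the row of `PSL_3(q)`, `q = 1 mod 4`, at `p = 2` (helper872)
-/

set_option autoImplicit false

namespace Cfsg.Agent.H872.HT

open Matrix MulAction Cfsg Cfsg.Agent.H316.HT

universe u

section Nrm

variable {G : Type u} [Group G] (N : Subgroup G) [hN : N.Normal]

theorem map_conj_conj (Q : Subgroup N) (a b : G) : (Q.map (MulAut.conjNormal a : MulAut N).toMonoidHom).map
      (MulAut.conjNormal b : MulAut N).toMonoidHom = Q.map (MulAut.conjNormal (b * a) : MulAut N).toMonoidHom := by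
  rw [Subgroup.map_map]
  congr 1
  ext1 x
  show (MulAut.conjNormal b : MulAut N) ((MulAut.conjNormal a : MulAut N) x) = (MulAut.conjNormal (b * a) : MulAut N) x
  rw [map_mul]
  rfl

/-- the normalizer in `G` of a subgroup of `N` -/
def nrm (P : Subgroup N) : Subgroup G where
  carrier := {g | P.map (MulAut.conjNormal g : MulAut N).toMonoidHom = P}
  one_mem' := by
    show P.map (MulAut.conjNormal (1 : G) : MulAut N).toMonoidHom = P
    rw [map_one]
    exact Subgroup.map_id P
  mul_mem' := by
    intro a b ha hb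
    show P.map (MulAut.conjNormal (a * b) : MulAut N).toMonoidHom = P
    rw [← map_conj_conj, show P.map (MulAut.conjNormal b : MulAut N).toMonoidHom = P from hb]
    exact ha
  inv_mem' := by
    intro a ha
    show P.map (MulAut.conjNormal a⁻¹ : MulAut N).toMonoidHom = P
    conv_lhs => rw [← show P.map (MulAut.conjNormal a : MulAut N).toMonoidHom = P from ha]
    rw [map_conj_conj, inv_mul_cancel, map_one]
    exact Subgroup.map_id P

theorem mem_nrm (P : Subgroup N) (g : G) :
    g ∈ nrm N P ↔ P.map (MulAut.conjNormal g : MulAut N).toMonoidHom = P := Iff.rfl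

/-- the stabiliser of a point in a 2-transitive group of degree at least three is self-normalizing -/
theorem nrm_relIndex {X : Type*} [MulAction N X] [Finite X] [IsPretransitive N X]
    (h2 : IsMultiplyPretransitive N X 2) (h3 : 3 ≤ Nat.card X) (x : X) :
    (nrm N (stabilizer N x)).relIndex N = Nat.card X := by
  have h : (nrm N (stabilizer N x)).subgroupOf N = stabilizer N x := by
    ext n
    rw [Subgroup.mem_subgroupOf, mem_nrm]
    have hc : (MulAut.conjNormal (n : G) : MulAut N) = MulAut.conj n := by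
      ext y
      rw [MulAut.conjNormal_apply]
      rfl
    rw [hc, ← stabilizer_smul_eq_stabilizer_map_conj]
    constructor
    · intro h4
      by_contra hn
      rw [mem_stabilizer_iff] at hn
      obtain ⟨z, hz1, hz2⟩ : ∃ z : X, z ≠ x ∧ z ≠ n • x := by
        by_contra hcon
        push Not at hcon
        have h5 : (Set.univ : Set X) ⊆ {x, n • x} := by
          intro z _
          by_cases hz : z = x
          · exact Or.inl hz
          · exact Or.inr (hcon z hz)
        have h6 := Set.ncard_le_ncard h5 (Set.toFinite _)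
        rw [Set.ncard_univ] at h6
        have h7 := Set.ncard_insert_le x ({n • x} : Set X)
        rw [Set.ncard_singleton] at h7
        omega
      rw [is_two_pretransitive_iff] at h2
      obtain ⟨k, hk1, hk2⟩ := h2 (Ne.symm hn) (Ne.symm hz1)
      have hk3 : k ∈ stabilizer N (n • x) := by
        rw [h4]; exact hk1
      rw [mem_stabilizer_iff, hk2] at hk3
      exact hz2 hk3
    · intro h4
      rw [mem_stabilizer_iff.1 h4]
  show ((nrm N (stabilizer N x)).subgroupOf N).index = _
  rw [h, index_stabilizer_of_transitive]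

end Nrm

section Ext

variable {F : Type*} [Field F] [Fintype F]

theorem ext_pts {G : Type u} [Group G] [Finite G] (N : Subgroup G) [hN : N.Normal]
    (e : N ≃* Matrix.ProjectiveSpecialLinearGroup (Fin 3) F)
    (hidx : ∃ j : ℕ, N.index = 2 ^ j) :
    ∃ χ : IrrCharacter G, ∀ n : N, (χ : G → ℂ) n = (Nat.card (fixedBy (Pts e) n) : ℂ) - 1 := by
  have hq : 1 < Nat.card F := Finite.one_lt_card
  have hq2 : Nat.card F ^ 2 = Nat.card F * Nat.card F := sq _
  have hm : 3 ≤ Nat.card F ^ 2 + Nat.card F + 1 := by nlinarith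
  have hc := card_pts e
  have hmodd : Odd (Nat.card F ^ 2 + Nat.card F + 1) := by
    have h : Even (Nat.card F ^ 2 + Nat.card F) := by
      rw [sq, ← Nat.mul_succ]
      exact Nat.even_mul_succ_self _
    exact h.add_one
  refine exists_ext N (m := Nat.card F ^ 2 + Nat.card F + 1) (by omega) hidx hmodd
    (not_sq_dvd (prj e) (prj_surj e)) ?_ (nrm N (stabilizer N (Pts.mk e x0))) ?_ ?_ (Pts e) hc (pts_two e)
  · intro X _ _ _ hX
    refine H386.PslPts.psl_two (n := 3) (by norm_num) e ?_
    rw [hX, ← Nat.card_eq_fintype_card]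
    obtain ⟨k, hk⟩ := Nat.exists_eq_add_of_lt hq
    rw [hk]
    have : (1 + k + 1) ^ 3 = ((1 + k + 1) ^ 2 + (1 + k + 1) + 1) * (1 + k + 1 - 1) + 1 := by
      rw [Nat.add_sub_cancel]; ring
    omega
  · rw [nrm_relIndex N (pts_two e) (by omega), hc]
  · refine index_le_two N (stabilizer N (Pts.mk e x0)) (m := Nat.card F ^ 2 + Nat.card F + 1) ?_ ?_ _
      fun g hg => hg
    · rw [index_stabilizer_of_transitive, hc]
    · intro K1 K2 K3 h1 h2 h3
      exact three (prj e) (prj_surj e) K1 K2 K3 h1 h2 h3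

end Ext

/-- **the field `psl3_wr` of the dispatcher** -/
theorem psl3_wr (F : Type) [Field F] [Fintype F] (hF : Fintype.card F % 4 = 1) :
    Row 2 (ProjectiveSpecialLinearGroup (Fin 3) F) := by
  classical
  intro A _ _ N hN ⟨e⟩ _ M hM P a ha _
  have h2f : Fact (Nat.Prime 2) := ⟨Nat.prime_two⟩
  have := Fintype.ofFinite A
  have := Fintype.ofFinite N
  have hodd : Odd (Fintype.card F) := by rw [Nat.odd_iff]; omega
  set H : Subgroup A := N ⊔ (P : Subgroup A) with hH
  have hNH : N ≤ H := le_sup_left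
  let e1 : N.subgroupOf H ≃* N := Subgroup.subgroupOfEquivOfLe hNH
  obtain ⟨ξ, hξ⟩ := ext_pts (N.subgroupOf H) (e1.trans e) (H624.HT.index_subgroupOf_sup N P P.isPGroup')
  let ψ : IrrCharacter N := ⟨_, irr_pts e⟩
  have hval : ∀ n : N, (ξ : H → ℂ) ⟨n, hNH n.2⟩ = (ψ : N → ℂ) n := by
    intro n
    have h1 := hξ (e1.symm n)
    have h2 : ((e1.symm n : N.subgroupOf H) : H) = ⟨n, hNH n.2⟩ := rfl
    rw [h2] at h1
    rw [h1]
    show (Nat.card (fixedBy (Pts (e1.trans e)) (e1.symm n)) : ℂ) - 1 = (Nat.card (fixedBy (Pts e) n) : ℂ) - 1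
    rfl
  have hdeg1 : (ψ : N → ℂ) 1 = (Fintype.card F * (Fintype.card F + 1) : ℕ) := by
    show (Nat.card (fixedBy (Pts e) (1 : N)) : ℂ) - 1 = _
    have h3 : fixedBy (Pts e) (1 : N) = Set.univ := by
      ext i
      simp
    rw [h3, Nat.card_univ, card_pts, Nat.card_eq_fintype_card]
    push_cast
    ring
  have hdψ : charDegree (ψ : N → ℂ) = Fintype.card F * (Fintype.card F + 1) := by
    unfold charDegree
    rw [hdeg1, Complex.natCast_re, Nat.floor_natCast]
  have hdξ : charDegree (ξ : H → ℂ) = Fintype.card F * (Fintype.card F + 1) := by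
    unfold charDegree
    have h1 := hval 1
    have h2 : (⟨((1 : N) : A), hNH (1 : N).2⟩ : H) = 1 := rfl
    rw [h2] at h1
    rw [h1, hdeg1, Complex.natCast_re, Nat.floor_natCast]
  have hv : (Fintype.card F * (Fintype.card F + 1)).factorization 2 = 1 := by
    have h1 : ¬ 2 ∣ Fintype.card F := by omega
    obtain ⟨k, hk, hk2⟩ : ∃ k, Fintype.card F + 1 = 2 * k ∧ ¬ 2 ∣ k :=
      ⟨(Fintype.card F + 1) / 2, by omega, by omega⟩
    have hk0 : k ≠ 0 := by rintro rfl; exact hk2 (dvd_zero 2)
    have hF0 : Fintype.card F ≠ 0 := Fintype.card_ne_zero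
    rw [hk, Nat.factorization_mul hF0 (by omega), Nat.factorization_mul (by norm_num) hk0]
    simp only [Finsupp.coe_add, Pi.add_apply]
    rw [Nat.factorization_eq_zero_of_not_dvd h1, Nat.factorization_eq_zero_of_not_dvd hk2,
      Nat.Prime.factorization_self Nat.prime_two, zero_add, add_zero]
  refine H624.HT.goodOn_of hM N P ψ (pts_mem hM hodd e) H hH ξ ?_ ?_ (Or.inl ?_) ?_
  · intro _
    have h1 : (fun n : N => (ξ : H → ℂ) ⟨n, hH ▸ Subgroup.mem_sup_left n.2⟩) = (ψ : N → ℂ) := funext hval
    rw [h1, Cfsg.Agent.Characters.Core.classInner_irr_self ψ.2]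
    exact one_ne_zero
  · rw [vd, hdξ, hv]
    exact ha
  · rw [hdψ]
    exact (Nat.even_mul_succ_self _).two_dvd
  · intro h
    have h1 := congrFun h 1
    rw [hdeg1] at h1
    have h2 : Fintype.card F * (Fintype.card F + 1) = 1 := by exact_mod_cast h1
    have h3 : 1 < Fintype.card F := Fintype.one_lt_card
    nlinarith

end Cfsg.Agent.H872.HT
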