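import Cfsg.Agent.S0157
import Cfsg.Agent.S0190
import Cfsg.Agent.H112.HT.Ind

/-!
# 2-transitive permutation characters: invariance, extension and the principal block (helper872, S4933)

* `perm_eq` : two 2-transitive actions of `G` such that `G` is not transitive on the product have the same
  permutation character;
* `perm_inv` : if `|X| ^ 2 ∤ |G|`, the permutation character of a 2-transitive action on `X` is invariant under
  all automorphisms;
* `mackey_of_two` : Mackey's criterion for a linear character of a point stabiliser;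
* `perm_mem` : `π - 1` is in the principal block if the point stabiliser has a linear character of `p`-power order
  which induces irreducibly.
-/

set_option autoImplicit false

open Cfsg Cfsg.Agent.Characters.Core MulAction
open scoped ComplexConjugate

namespace Cfsg.Agent.H872.HT

universe u v w

section Perm

variable {G : Type u} [Group G] [Finite G]

omit [Finite G] in
theorem pret_of_card_orbits {X : Type v} [MulAction G X]
    (h : Nat.card (Quotient (orbitRel G X)) = 1) : IsPretransitive G X := by
  rw [Nat.card_eq_one_iff_unique] at h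
  obtain ⟨h1, -⟩ := h
  refine ⟨fun x y => ?_⟩
  have h2 : (Quotient.mk (orbitRel G X) y) = Quotient.mk (orbitRel G X) x := Subsingleton.elim _ _
  exact Quotient.exact h2

/-- Two 2-transitive actions with the group not transitive on the product. -/
theorem perm_eq {X : Type v} {Y : Type w} [MulAction G X] [MulAction G Y] [Finite X] [Finite Y]
    [IsPretransitive G X] [IsPretransitive G Y] (hX2 : 2 ≤ Nat.card X) (hY2 : 2 ≤ Nat.card Y)
    (hX : IsMultiplyPretransitive G X 2) (hY : IsMultiplyPretransitive G Y 2)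
    (h : ¬ IsPretransitive G (X × Y)) (g : G) : Nat.card (fixedBy X g) = Nat.card (fixedBy Y g) := by
  classical
  have := Fintype.ofFinite G
  have hneX : Nonempty X := by
    rw [← Finite.card_pos_iff]; omega
  have hneY : Nonempty Y := by
    rw [← Finite.card_pos_iff]; omega
  obtain ⟨πX, hπX⟩ : ∃ π : G → ℂ, π = fun g : G => (Nat.card (fixedBy X g) : ℂ) := ⟨_, rfl⟩
  obtain ⟨πY, hπY⟩ : ∃ π : G → ℂ, π = fun g : G => (Nat.card (fixedBy Y g) : ℂ) := ⟨_, rfl⟩
  have hiX : IsIrrCharacter G (πX - 1) := by
    rw [hπX]; exact (S0157.result X hX2).2 hX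
  have hiY : IsIrrCharacter G (πY - 1) := by
    rw [hπY]; exact (S0157.result Y hY2).2 hY
  by_cases he : πX - 1 = πY - 1
  · have h1 : πX = πY := sub_left_inj.1 he
    have h2 := congrFun h1 g
    rw [hπX, hπY] at h2
    dsimp only at h2
    exact_mod_cast h2
  · exfalso
    apply h
    apply pret_of_card_orbits
    have h0 := classInner_irr_ne hiX hiY he
    have h11 : classInner (1 : G → ℂ) 1 = 1 := classInner_irr_self isIrr_one
    have hX1 : classInner πX 1 = 1 := by
      have := S0157.avg_fixedBy (G := G) X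
      rw [S0157.card_orbits_of_pretransitive G X] at this
      rw [hπX]
      simpa [classInner] using this
    have hY1 : classInner πY 1 = 1 := by
      have := S0157.avg_fixedBy (G := G) Y
      rw [S0157.card_orbits_of_pretransitive G Y] at this
      rw [hπY]
      simpa [classInner] using this
    have h1Y : classInner 1 πY = 1 := by
      rw [← classInner_conj_symm, hY1, map_one]
    have hXY : classInner πX πY = (Nat.card (Quotient (orbitRel G (X × Y))) : ℂ) := by
      rw [← S0157.avg_fixedBy (G := G) (X × Y), hπX, hπY]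
      simp only [classInner, S0157.card_fixedBy_prod, Nat.cast_mul, Complex.conj_natCast]
    rw [classInner_sub_left, classInner_sub_right, classInner_sub_right, hXY, hX1, h1Y, h11] at h0
    have h2 : (Nat.card (Quotient (orbitRel G (X × Y))) : ℂ) = 1 := by linear_combination h0
    exact_mod_cast h2

omit [Finite G] in
/-- If `G` is transitive on `X` then `|X|` divides `|G|`. -/
theorem card_dvd_of_pret {X : Type v} [MulAction G X] [Nonempty X] (h : IsPretransitive G X) :
    Nat.card X ∣ Nat.card G := by
  obtain ⟨x⟩ := ‹Nonempty X›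
  rw [← index_stabilizer_of_transitive G x]
  exact Subgroup.index_dvd_card _

/-- Two 2-transitive actions of degree `m` have the same permutation character if `m ^ 2 ∤ |G|`. -/
theorem perm_eq' {X : Type v} {Y : Type w} [MulAction G X] [MulAction G Y] [Finite X] [Finite Y]
    [IsPretransitive G X] [IsPretransitive G Y] {m : ℕ} (hm : 2 ≤ m) (hX2 : Nat.card X = m)
    (hY2 : Nat.card Y = m) (hX : IsMultiplyPretransitive G X 2) (hY : IsMultiplyPretransitive G Y 2)
    (h : ¬ m ^ 2 ∣ Nat.card G) (g : G) : Nat.card (fixedBy X g) = Nat.card (fixedBy Y g) := by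
  have hneX : Nonempty X := by
    rw [← Finite.card_pos_iff]; omega
  have hneY : Nonempty Y := by
    rw [← Finite.card_pos_iff]; omega
  refine perm_eq (by omega) (by omega) hX hY (fun h1 => h ?_) g
  have h2 := card_dvd_of_pret h1
  rwa [Nat.card_prod, hX2, hY2, ← sq] at h2

/-- `X` with the action twisted by an automorphism -/
def Tw (X : Type v) (_c : MulAut G) : Type v := X

/-- the same point -/
def Tw.mk {X : Type v} (c : MulAut G) (x : X) : Tw X c := x

instance (X : Type v) [MulAction G X] (c : MulAut G) : MulAction G (Tw X c) :=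
  MulAction.compHom X (c : G ≃* G).toMonoidHom

instance (X : Type v) [Finite X] (c : MulAut G) : Finite (Tw X c) := inferInstanceAs (Finite X)

/-- Invariance of a 2-transitive permutation character under automorphisms. -/
theorem perm_inv {X : Type v} [MulAction G X] [Finite X]
    [IsPretransitive G X] {m : ℕ} (hm : 2 ≤ m) (hX2 : Nat.card X = m)
    (hX : IsMultiplyPretransitive G X 2)
    (h : ¬ m ^ 2 ∣ Nat.card G) (c : MulAut G) (g : G) :
    Nat.card (fixedBy X (c g)) = Nat.card (fixedBy X g) := by
  have hs : ∀ (g : G) (y : X), g • Tw.mk c y = Tw.mk c (c g • y) := fun _ _ => rfl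
  have hYp : IsPretransitive G (Tw X c) := ⟨fun (x y : X) => by
    obtain ⟨g, hg⟩ := exists_smul_eq G x y
    refine ⟨c⁻¹ g, ?_⟩
    show c⁻¹ g • Tw.mk c x = Tw.mk c y
    rw [hs, MulAut.apply_inv_self G c g, hg]⟩
  have hY : IsMultiplyPretransitive G (Tw X c) 2 := by
    rw [is_two_pretransitive_iff] at hX ⊢
    have key : ∀ a b a' b' : X, a ≠ b → a' ≠ b' →
        ∃ g : G, g • Tw.mk c a = Tw.mk c a' ∧ g • Tw.mk c b = Tw.mk c b' := by
      intro a b a' b' h1 h2
      obtain ⟨g, hg1, hg2⟩ := hX h1 h2
      refine ⟨c⁻¹ g, ?_, ?_⟩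
      · rw [hs, MulAut.apply_inv_self G c g, hg1]
      · rw [hs, MulAut.apply_inv_self G c g, hg2]
    intro a b a' b' h1 h2
    exact key a b a' b' h1 h2
  exact perm_eq' (X := Tw X c) (Y := X) hm hX2 hX2 hY hX h g

end Perm

section Mackey

variable {G : Type u} [Group G] {X : Type v} [MulAction G X]

/-- Mackey's criterion for a linear character of the stabiliser of a point in a 2-transitive action. -/
theorem mackey_of_two (hX : IsMultiplyPretransitive G X 2) (x : X) (l : stabilizer G x →* ℂˣ) (s d : G)
    (hs : s • x ≠ x) (hd : d ∈ stabilizer G x) (hd' : s⁻¹ * d * s ∈ stabilizer G x)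
    (hne : l ⟨d, hd⟩ ≠ l ⟨_, hd'⟩) (g : G)
    (h : ∀ a b : stabilizer G x, (b : G) = g * a * g⁻¹ → l a = l b) : g ∈ stabilizer G x := by
  by_contra hg
  have hg' : g⁻¹ • x ≠ x := by
    intro h1
    apply hg
    rw [mem_stabilizer_iff]
    exact (inv_smul_eq_iff.1 h1).symm
  rw [is_two_pretransitive_iff] at hX
  obtain ⟨k, hk1, hk2⟩ := hX hs.symm hg'.symm
  have hk : k ∈ stabilizer G x := hk1
  have hgk : g * k * s ∈ stabilizer G x := by
    rw [mem_stabilizer_iff, mul_smul, mul_smul, hk2, smul_inv_smul]
  set K : stabilizer G x := ⟨k, hk⟩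
  set D : stabilizer G x := ⟨d, hd⟩
  set L : stabilizer G x := ⟨g * k * s, hgk⟩
  set D' : stabilizer G x := ⟨_, hd'⟩
  have h1 := h (K * D * K⁻¹) (L * D' * L⁻¹) (by
    show g * k * s * (s⁻¹ * d * s) * (g * k * s)⁻¹ = g * (k * d * k⁻¹) * g⁻¹
    group)
  apply hne
  rw [map_mul, map_mul, map_mul, map_mul, map_inv, map_inv, mul_comm (l K), mul_comm (l L),
    mul_inv_cancel_right, mul_inv_cancel_right] at h1
  exact h1

end Mackey

section Block

variable {G : Type u} [Group G] [Finite G] {p : ℕ} [Fact p.Prime] {M : Ideal AlgInt}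

/-- `π - 1` in the principal block. -/
theorem perm_mem (hM : IsPModular p M) {X : Type v} [MulAction G X] [Finite X] [IsPretransitive G X] (x : X)
    (l : stabilizer G x →* ℂˣ) (hl : ∃ k : ℕ, l ^ p ^ k = 1)
    (hmack : ∀ g : G, (∀ a b : stabilizer G x, (b : G) = g * a * g⁻¹ → l a = l b) → g ∈ stabilizer G x)
    (ψ : IrrCharacter G) (hψ : ∀ g, (ψ : G → ℂ) g = (Nat.card (fixedBy X g) : ℂ) - 1) :
    ψ ∈ principalBlock M G := by
  classical
  have := Fintype.ofFinite G
  have := Fintype.ofFinite (stabilizer G x)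
  obtain ⟨R, hR, hRv, -⟩ := H112.HT.exists_mackey hM (stabilizer G x) l hl hmack
  have hreg : ∀ g : G, ¬ p ∣ orderOf g → (R : G → ℂ) g = (ψ : G → ℂ) g + 1 := by
    intro g hg
    rw [hRv, hψ, sub_add_cancel]
    have h1 : (Nat.card (fixedBy X g) : ℂ) = indFun (stabilizer G x) (fun _ => 1) g :=
      congrFun (S0190.result (G := G) X x) g
    rw [h1, S0150.indFun_apply, S0150.indFun_apply]
    congr 1
    refine Finset.sum_congr rfl fun y _ => ?_
    by_cases hy : y⁻¹ * g * y ∈ stabilizer G x
    · rw [show y⁻¹ * g * y = ((⟨_, hy⟩ : stabilizer G x) : G) from rfl, S0150.extendByZero_coe,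
        S0150.extendByZero_coe]
      have h2 : ¬ p ∣ orderOf (⟨_, hy⟩ : stabilizer G x) := by
        rw [← Subgroup.orderOf_coe]
        have h3 : orderOf (y⁻¹ * g * y) = orderOf g := by
          have := (MulAut.conj y⁻¹).orderOf_eq g
          simpa using this
        show ¬ p ∣ orderOf (y⁻¹ * g * y)
        rw [h3]
        exact hg
      rw [H112.HT.lin_regular l hl h2, Units.val_one]
    · unfold extendByZero
      rw [Function.extend_apply', Function.extend_apply']
      · rintro ⟨a, ha⟩
        exact hy (ha ▸ a.2)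
      · rintro ⟨a, ha⟩
        exact hy (ha ▸ a.2)
  by_contra hcon
  have h1 := Blocks.Orthogonality.orthogonal_on_p_regular hM (principalBlock M G) (H892.EP.coeff_ring hM)
    R ψ hR hcon
  have h2 := Blocks.Orthogonality.orthogonal_on_p_regular hM (principalBlock M G) (H892.EP.coeff_ring hM)
    (H892.EP.oneChar G) ψ (H892.EP.one_mem_block hM) hcon
  rw [finsum_mem_eq_finite_toFinset_sum _ (Set.toFinite _)] at h1 h2
  have h3 : ∑ x ∈ (Set.toFinite {x : G | ¬ p ∣ orderOf x}).toFinset, Complex.normSq ((ψ : G → ℂ) x) = 0 := by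
    have h4 : (∑ x ∈ (Set.toFinite {x : G | ¬ p ∣ orderOf x}).toFinset, Complex.normSq ((ψ : G → ℂ) x) : ℂ) = 0 := by
      rw [← sub_self (0 : ℂ)]
      nth_rewrite 1 [← h1]
      rw [← h2, ← Finset.sum_sub_distrib]
      refine Finset.sum_congr rfl fun y hy => ?_
      have hy' : ¬ p ∣ orderOf y := by
        rw [Set.Finite.mem_toFinset] at hy
        exact hy
      rw [hreg y hy', Complex.normSq_eq_conj_mul_self]
      have h5 : ((H892.EP.oneChar G : IrrCharacter G) : G → ℂ) y = 1 := rfl
      rw [h5]
      ring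
    exact_mod_cast h4
  have h4 : (1 : G) ∈ (Set.toFinite {x : G | ¬ p ∣ orderOf x}).toFinset := by
    rw [Set.Finite.mem_toFinset]
    show ¬ p ∣ orderOf (1 : G)
    rw [orderOf_one]
    exact (Fact.out : p.Prime).one_lt.ne' ∘ Nat.dvd_one.1
  have h5 := (Finset.sum_eq_zero_iff_of_nonneg (fun x _ => Complex.normSq_nonneg _)).1 h3 1 h4
  rw [Complex.normSq_eq_zero] at h5
  exact isIrr_apply_one_ne_zero ψ.2 h5

end Block

end Cfsg.Agent.H872.HT
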